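import Mathlib
import Cfsg.Prelude.Def_Solvable
import Cfsg.Prelude.Def_Transfer
import Cfsg.Prelude.Def_TwoFusion
import Cfsg.Prelude.Def_Local

/-!
# Project HJO (S3313): order of a simple group with the involution pattern of the Hall-Janko group

Thompson order formula (S0213): `|G| = |C(t)| * n₁ + |C(z)| * n₂` with
`n₁ = #{(u,v) | u ~ z, v ~ t, z ∈ ⟨uv⟩} = 960`, `n₂ = #{(u,v) | u ~ z, v ~ t, t ∈ ⟨uv⟩} = 195`,
`|C(z)| = 32 * 60`, `|C(t)| = 4 * 60`, so `|G| = 240 * 960 + 1920 * 195 = 604800`.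

This file: the interface (package Props). No proofs here.
-/

set_option autoImplicit false

namespace Cfsg.Agent.Lib.Helper49.HJO

universe u

/-- `cm v q = q⁻¹ * (v q v)`: the commutator of `q` with the involution `v` (`v⁻¹ = v`). -/
def cm {G : Type u} [Group G] (v q : G) : G := q⁻¹ * (v * q * v)

/-- `InL Q v q`: `q ∈ Q` is inverted by the involution `v`. -/
def InL {G : Type u} [Group G] (Q : Subgroup G) (v q : G) : Prop := q ∈ Q ∧ v * q * v = q⁻¹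

/-- The local configuration in `H = C_G(z)`: `Q = O_2(H)` extraspecial of order 32 with centre
`{1, z}`, complement `K ≅ A₅`, and every involution `v` of `H` outside `Q` has `C_Q(v)` of
order 4 and exponent 2. -/
structure ZCfg {G : Type u} [Group G] (H Q K : Subgroup G) (z : G) : Prop where
  z_ne : z ≠ 1
  z_sq : z * z = 1
  zQ : z ∈ Q
  QH : Q ≤ H
  zc : ∀ h ∈ H, h * z = z * h
  Qn : ∀ h ∈ H, ∀ q ∈ Q, h * q * h⁻¹ ∈ Q
  cardQ : Nat.card Q = 32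
  sq : ∀ x ∈ Q, x * x = 1 ∨ x * x = z
  comm : ∀ x ∈ Q, ∀ y ∈ Q, x * y = y * x ∨ x * y = z * (y * x)
  cen : ∀ x ∈ Q, (∀ y ∈ Q, x * y = y * x) → x = 1 ∨ x = z
  KH : K ≤ H
  KQ : K ⊓ Q = ⊥
  KsupQ : K ⊔ Q = H
  Kiso : Nonempty (K ≃* alternatingGroup (Fin 5))
  cent : ∀ v ∈ H, v ∉ Q → v * v = 1 →
    Nat.card {q : G // q ∈ Q ∧ v * q = q * v} = 4 ∧ ∀ q ∈ Q, v * q = q * v → q * q = 1

/-- Facts about `L_v = {q ∈ Q | v q v = q⁻¹}` for an involution `v ∈ H \ Q`. -/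
structure LVFacts {G : Type u} [Group G] (Q : Subgroup G) (z v : G) : Prop where
  card : Nat.card {q : G // InL Q v q} = 8
  cm_mem : ∀ q ∈ Q, InL Q v (cm v q)
  surj : ∀ l, InL Q v l → ∃ q ∈ Q, cm v q = l
  one : InL Q v 1
  inv : ∀ a, InL Q v a → InL Q v a⁻¹
  mul : ∀ a b, InL Q v a → InL Q v b → InL Q v (a * b)
  comm : ∀ a b, InL Q v a → InL Q v b → a * b = b * a
  ofZ : ∀ q ∈ Q, (cm v q = 1 ∨ cm v q = z) → InL Q v q
  fix : ∀ q, InL Q v q → (q * q = 1 ↔ v * q = q * v)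
  fib : ∀ q ∈ Q, ∀ q' ∈ Q, (cm v q = cm v q' ↔ v * (q' * q⁻¹) = (q' * q⁻¹) * v)

/-- [LV] -/
def PkgLV : Prop :=
  ∀ {G : Type u} [Group G] [Finite G] (H Q K : Subgroup G) (z : G), ZCfg H Q K z →
    ∀ v ∈ H, v ∉ Q → v * v = 1 → LVFacts Q z v

/-- [CRIT] `z ∈ ⟨uv⟩ ↔ [u,v]² = z`. -/
def PkgCrit : Prop :=
  ∀ {G : Type u} [Group G] [Finite G] (H Q K : Subgroup G) (z : G), ZCfg H Q K z →
    ∀ v ∈ H, v ∉ Q → v * v = 1 → ∀ u ∈ Q, u * u = 1 →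
      (z ∈ Subgroup.zpowers (u * v) ↔ cm v u * cm v u = z)

/-- [NV] for each involution `v ∈ H \ Q` exactly 8 elements `u ∈ Q` with `u² = 1`, `[u,v]² = z`. -/
def PkgNV : Prop :=
  ∀ {G : Type u} [Group G] [Finite G] (H Q K : Subgroup G) (z : G), ZCfg H Q K z →
    ∀ v ∈ H, v ∉ Q → v * v = 1 →
      Nat.card {u : G // u ∈ Q ∧ u * u = 1 ∧ cm v u * cm v u = z} = 8

/-- [V] there are exactly 120 involutions in `H \ Q`. -/
def PkgV : Prop :=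
  ∀ {G : Type u} [Group G] [Finite G] (H Q K : Subgroup G) (z : G), ZCfg H Q K z →
    Nat.card {v : G // v ∈ H ∧ v ∉ Q ∧ v * v = 1} = 120

/-- [N1] the local count: 960 pairs. -/
def PkgN1 : Prop :=
  ∀ {G : Type u} [Group G] [Finite G] (H Q K : Subgroup G) (z : G), ZCfg H Q K z →
    Nat.card {p : G × G // p.1 ∈ Q ∧ p.1 * p.1 = 1 ∧ p.2 ∈ H ∧ p.2 ∉ Q ∧ p.2 * p.2 = 1 ∧
      z ∈ Subgroup.zpowers (p.1 * p.2)} = 960

/-- [RED1] the Thompson count `n₁` is the local count in `C(z)`. -/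
def PkgRed1 : Prop :=
  ∀ {G : Type u} [Group G] [Finite G] (z t : G) (Q : Subgroup G),
    orderOf z = 2 → orderOf t = 2 → ¬ IsConj z t → z ∈ Q →
    (∀ x ∈ Q, orderOf x = 2 → IsConj x z) →
    (∀ x ∈ Subgroup.centralizer ({z} : Set G), orderOf x = 2 → x ∉ Q → IsConj x t) →
    Nat.card {p : G × G // IsConj z p.1 ∧ IsConj t p.2 ∧ z ∈ Subgroup.zpowers (p.1 * p.2)} =
      Nat.card {p : G × G // p.1 ∈ Q ∧ p.1 * p.1 = 1 ∧ p.2 ∈ Subgroup.centralizer ({z} : Set G) ∧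
        p.2 ∉ Q ∧ p.2 * p.2 = 1 ∧ z ∈ Subgroup.zpowers (p.1 * p.2)}

/-- [N2] the Thompson count `n₂ = 195`, computed in `C(t) = V × B`, `B ≅ A₅`. -/
def PkgN2 : Prop :=
  ∀ {G : Type u} [Group G] [Finite G] (z t : G) (V B : Subgroup G),
    orderOf z = 2 → orderOf t = 2 → ¬ IsConj z t →
    Cfsg.IsInternalDirectProduct V B (Subgroup.centralizer ({t} : Set G)) →
    (∀ v ∈ V, v ^ 2 = 1) → t ∈ V → Nonempty (↥B ≃* alternatingGroup (Fin 5)) →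
    (∀ x ∈ B, orderOf x = 2 → IsConj x z) →
    (∀ x ∈ Subgroup.centralizer ({t} : Set G), orderOf x = 2 → x ∉ B → IsConj x t) →
    Nat.card {p : G × G // IsConj z p.1 ∧ IsConj t p.2 ∧ t ∈ Subgroup.zpowers (p.1 * p.2)} = 195

/-- [CENT] centralizers in `Q` of involutions of `C(z)` outside `Q`. -/
def PkgCent : Prop :=
  ∀ {G : Type u} [Group G] [Finite G] (z t : G) (Q V B : Subgroup G),
    orderOf z = 2 → orderOf t = 2 → ¬ IsConj z t →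
    Q ≤ Subgroup.centralizer ({z} : Set G) →
    (∀ x ∈ Q, orderOf x = 2 → IsConj x z) →
    (∀ x ∈ Subgroup.centralizer ({z} : Set G), orderOf x = 2 → x ∉ Q → IsConj x t) →
    Cfsg.IsInternalDirectProduct V B (Subgroup.centralizer ({t} : Set G)) →
    (∀ v ∈ V, v ^ 2 = 1) → Nonempty (↥B ≃* alternatingGroup (Fin 5)) →
    (∀ x ∈ B, orderOf x = 2 → IsConj x z) →
    (∀ x ∈ Subgroup.centralizer ({t} : Set G), orderOf x = 2 → x ∉ B → IsConj x t) →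
    ∀ v ∈ Subgroup.centralizer ({z} : Set G), v ∉ Q → v * v = 1 →
      Nat.card {q : G // q ∈ Q ∧ v * q = q * v} = 4 ∧ ∀ q ∈ Q, v * q = q * v → q * q = 1

/-- Extraspecial facts for `Q ≤ H`. -/
structure QFacts {G : Type u} [Group G] (H Q : Subgroup G) (z : G) : Prop where
  zQ : z ∈ Q
  QH : Q ≤ H
  Qn : ∀ h ∈ H, ∀ q ∈ Q, h * q * h⁻¹ ∈ Q
  cardQ : Nat.card Q = 32
  sq : ∀ x ∈ Q, x * x = 1 ∨ x * x = z
  comm : ∀ x ∈ Q, ∀ y ∈ Q, x * y = y * x ∨ x * y = z * (y * x)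
  cen : ∀ x ∈ Q, (∀ y ∈ Q, x * y = y * x) → x = 1 ∨ x = z

/-- [EXTRA] `O_2(C(z))` (as a subgroup of `G`) is extraspecial of order 32 with centre `{1,z}`. -/
def PkgExtra : Prop :=
  ∀ {G : Type u} [Group G] [Finite G] (z : G), orderOf z = 2 →
    Cfsg.IsExtraspecial 2 ↥(Cfsg.generalizedFittingSubgroup ↥(Subgroup.centralizer ({z} : Set G))) →
    Nat.card ↥(Cfsg.pCore 2 ↥(Subgroup.centralizer ({z} : Set G))) = 32 →
    QFacts (Subgroup.centralizer ({z} : Set G))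
      ((Cfsg.pCore 2 ↥(Subgroup.centralizer ({z} : Set G))).map
        (Subgroup.centralizer ({z} : Set G)).subtype) z

/-- [CARDSUP] `|AB| = |A||B|` when `A` normalizes `B` and `A ∩ B = 1`. -/
def PkgCardSup : Prop :=
  ∀ {G : Type u} [Group G] [Finite G] (A B : Subgroup G),
    (∀ a ∈ A, ∀ b ∈ B, a * b * a⁻¹ ∈ B) → A ⊓ B = ⊥ →
    Nat.card ↥(A ⊔ B) = Nat.card ↥A * Nat.card ↥B

end Cfsg.Agent.Lib.Helper49.HJO
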